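import Cfsg.Agent.H37.HT.Main

/-!
# S4933, part (O): rows from a cyclic Sylow `p`-subgroup of `Aut S` (helper564)

* `row_of_comm` : if the `p`-subgroups of `Aut S` are abelian, the row holds (nothing to prove);
* `row_of_orderOf` : `|Aut S|_p ≤ |φ|_p` for one automorphism `φ`.  For `p ∤ |S|`.
-/

set_option autoImplicit false

open Subgroup
open scoped Pointwise

namespace Cfsg.Agent.H564.HT

open Cfsg Cfsg.Agent.H316.HT Cfsg.Agent.H37.HT

universe v

/-- no non-abelian `p`-subgroups in `Aut S` -/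
theorem row_of_comm {p : ℕ} [Fact p.Prime] {S : Type v} [Group S]
    (h : ∀ Q : Subgroup (MulAut S), IsPGroup p Q → ∀ x ∈ Q, ∀ y ∈ Q, x * y = y * x) : Row p S := by
  intro A _ _ N _ he hC M hM P a ha hcd
  obtain ⟨e⟩ := he
  exfalso
  let Θ : A →* MulAut S := (autE e).toMonoidHom.comp MulAut.conjNormal
  have hinj : Function.Injective Θ := by
    rw [injective_iff_map_eq_one]
    intro x hx
    have h1 : (MulAut.conjNormal x : MulAut N) = 1 := (autE e).injective (by rw [map_one]; exact hx)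
    have h2 : x ∈ centralizer (N : Set A) := by
      rw [mem_centralizer_iff]
      intro n hn
      have h3 := congrArg Subtype.val (DFunLike.congr_fun h1 ⟨n, hn⟩)
      rw [MulAut.conjNormal_apply, MulAut.one_apply] at h3
      exact (mul_inv_eq_iff_eq_mul.1 h3).symm
    rw [hC, mem_bot] at h2
    exact h2
  refine not_cd_of_comm ha (P := (P : Subgroup A)) (fun x y => Subtype.ext ?_) hcd
  have hQ : IsPGroup p (((P : Subgroup A)).map Θ) := P.isPGroup'.map Θ
  apply hinj
  have h4 := h _ hQ _ (mem_map_of_mem Θ x.2) _ (mem_map_of_mem Θ y.2)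
  rw [coe_mul, coe_mul, map_mul, map_mul]
  exact h4

/-- `|Aut S|_p ≤ |φ|_p` -/
theorem row_of_orderOf {p : ℕ} [Fact p.Prime] {S : Type v} [Group S] [Finite S] (φ : MulAut S)
    (h : (Nat.card (MulAut S)).factorization p ≤ (orderOf φ).factorization p) : Row p S := by
  classical
  have hfin : Finite (MulAut S) := Finite.of_injective (fun α : MulAut S => (α : S → S))
    (fun α β h => MulEquiv.ext fun x => congrFun h x)
  have hp : p.Prime := Fact.out
  have hn0 : orderOf φ ≠ 0 := (orderOf_pos φ).ne'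
  have h1 : (orderOf φ).factorization p = (Nat.card (MulAut S)).factorization p :=
    le_antisymm ((Nat.factorization_le_iff_dvd hn0 Nat.card_pos.ne').2 (orderOf_dvd_natCard φ) p) h
  have h2 : p ^ (orderOf φ).factorization p ∣ orderOf φ := Nat.ordProj_dvd _ _
  obtain ⟨m, hm⟩ := h2
  have hm0 : m ≠ 0 := by
    rintro rfl
    rw [mul_zero] at hm
    exact hn0 hm
  have h3 : orderOf (φ ^ m) = p ^ (orderOf φ).factorization p := by
    rw [orderOf_pow_of_dvd hm0 (Dvd.intro_left _ hm.symm)]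
    exact Nat.div_eq_of_eq_mul_left (Nat.pos_of_ne_zero hm0) hm
  let R : Sylow p (MulAut S) := Sylow.ofCard (zpowers (φ ^ m)) (by rw [Nat.card_zpowers, h3, h1])
  have hR : ∀ x ∈ (R : Subgroup (MulAut S)), ∀ y ∈ (R : Subgroup (MulAut S)), x * y = y * x := by
    intro x hx y hy
    obtain ⟨i, rfl⟩ := mem_zpowers_iff.1 (show x ∈ zpowers (φ ^ m) from hx)
    obtain ⟨j, rfl⟩ := mem_zpowers_iff.1 (show y ∈ zpowers (φ ^ m) from hy)
    rw [← zpow_add, ← zpow_add, add_comm]
  refine row_of_comm fun Q hQ x hx y hy => ?_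
  obtain ⟨Q', hQ'⟩ := hQ.exists_le_sylow
  obtain ⟨g, hg⟩ := MulAction.exists_smul_eq (MulAut S) R Q'
  have h5 : ∀ z ∈ Q, g⁻¹ * z * g ∈ (R : Subgroup (MulAut S)) := by
    intro z hz
    have h6 : z ∈ (g • R : Sylow p (MulAut S)) := by rw [hg]; exact hQ' hz
    have h7 : z ∈ (MulAut.conj g • (R : Subgroup (MulAut S)) : Subgroup (MulAut S)) := h6
    rw [mem_pointwise_smul_iff_inv_smul_mem] at h7
    have h8 : (MulAut.conj g)⁻¹ • z = g⁻¹ * z * g := by
      rw [← map_inv, MulAut.smul_def, MulAut.conj_apply, inv_inv]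
    rwa [h8] at h7
  have h9 := hR _ (h5 x hx) _ (h5 y hy)
  have h10 : g⁻¹ * (x * y) * g = g⁻¹ * (y * x) * g := by
    calc g⁻¹ * (x * y) * g = (g⁻¹ * x * g) * (g⁻¹ * y * g) := by group
      _ = (g⁻¹ * y * g) * (g⁻¹ * x * g) := h9
      _ = g⁻¹ * (y * x) * g := by group
  exact mul_left_cancel (mul_right_cancel h10)

end Cfsg.Agent.H564.HT
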